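import Cfsg.Agent.H436.L34.Frame

/-!
# S5917, (DS): descent of fixed vectors from `LK` to `L2` (helper436)

`S : Set E2`, `F2 S` the vectors of `L2` fixed by `S`, `FK S` the vectors of `LK` fixed by `em '' S`.

* `finrank_fix` : `finrank (F2 S) = finrank (FK S)`;
* `desc_sum` : a sum `∑ q y`, `y ∈ FK S`, in `up '' L2` is `up` of such a sum in `L2`;
* `mem_span_up` : `FK S` is spanned by `up '' F2 S`.
-/

set_option autoImplicit false
set_option maxRecDepth 100000

namespace Cfsg.Agent.H436.L34

open Matrix Cfsg Cfsg.Lie Cfsg.Lie.ChevalleyDatum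
open Cfsg.Agent.ChevalleyStructure.LieAbs Cfsg.Agent.ChevalleyStructure.LieAut
open Cfsg.Agent.H939.L64

/-- the vectors of `L2` fixed by `S` -/
def F2 (S : Set E2) : Submodule (ZMod 2) L2 where
  carrier := {v | ∀ g ∈ S, a2 g v = v}
  zero_mem' := fun g _ => Matrix.mulVec_zero _
  add_mem' := by
    intro v w hv hw g hg
    have h1 : a2 g (v + w) = a2 g v + a2 g w := Matrix.mulVec_add _ _ _
    rw [h1, hv g hg, hw g hg]
  smul_mem' := by
    intro c v hv g hg
    have h1 : a2 g (c • v) = c • a2 g v := Matrix.mulVec_smul _ _ _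
    rw [h1, hv g hg]

/-- the vectors of `LK` fixed by `em '' S` -/
def FK (S : Set E2) : Submodule KK LK where
  carrier := {v | ∀ g ∈ S, aK (em g) v = v}
  zero_mem' := fun g _ => Matrix.mulVec_zero _
  add_mem' := by
    intro v w hv hw g hg
    have h1 : aK (em g) (v + w) = aK (em g) v + aK (em g) w := Matrix.mulVec_add _ _ _
    rw [h1, hv g hg, hw g hg]
  smul_mem' := by
    intro c v hv g hg
    have h1 : aK (em g) (c • v) = c • aK (em g) v := Matrix.mulVec_smul _ _ _
    rw [h1, hv g hg]

theorem mem_F2 {S : Set E2} {v : L2} : v ∈ F2 S ↔ ∀ g ∈ S, a2 g v = v := Iff.rfl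

theorem mem_FK {S : Set E2} {v : LK} : v ∈ FK S ↔ ∀ g ∈ S, aK (em g) v = v := Iff.rfl

/-- a functional of `KK`, coordinatewise -/
noncomputable def pj (π : KK →ₗ[ZMod 2] ZMod 2) : LK →ₗ[ZMod 2] L2 where
  toFun y := fun i => π (y i)
  map_add' y z := by funext i; exact map_add π _ _
  map_smul' c y := by funext i; exact map_smul π _ _

theorem pj_apply (π : KK →ₗ[ZMod 2] ZMod 2) (y : LK) (i : chevE8.Idx) : pj π y i = π (y i) := rfl

theorem pj_aK (π : KK →ₗ[ZMod 2] ZMod 2) (g : E2) (y : LK) : pj π (aK (em g) y) = a2 g (pj π y) := by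
  funext i
  show π ((((em g : ↥(chevE8.group KK)) : GL chevE8.Idx KK) : Matrix chevE8.Idx chevE8.Idx KK).mulVec y i) =
    (((g : GL chevE8.Idx (ZMod 2)) : Matrix chevE8.Idx chevE8.Idx (ZMod 2))).mulVec (pj π y) i
  rw [Matrix.mulVec, Matrix.mulVec, dotProduct, dotProduct, map_sum]
  refine Finset.sum_congr rfl fun j _ => ?_
  rw [em_entry, ← Algebra.smul_def, map_smul, smul_eq_mul, pj_apply]

theorem pj_smul_up (π : KK →ₗ[ZMod 2] ZMod 2) (c : KK) (v : L2) : pj π (c • up v) = π c • v := by
  funext i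
  show π (c * algebraMap (ZMod 2) KK (v i)) = π c * v i
  rw [mul_comm c, ← Algebra.smul_def, map_smul, smul_eq_mul, mul_comm]

theorem pj_mem {S : Set E2} (π : KK →ₗ[ZMod 2] ZMod 2) {y : LK} (hy : y ∈ FK S) : pj π y ∈ F2 S := fun g hg => by
  rw [← pj_aK, hy g hg]

theorem up_mem {S : Set E2} {v : L2} (hv : v ∈ F2 S) : up v ∈ FK S := fun g hg => by
  rw [aK_em_up, hv g hg]

/-- a functional with value one at one -/
theorem exists_pi : ∃ π : KK →ₗ[ZMod 2] ZMod 2, ∀ x : ZMod 2, π (algebraMap (ZMod 2) KK x) = x := by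
  obtain ⟨π, hπ⟩ := LinearMap.exists_leftInverse_of_injective (Algebra.linearMap (ZMod 2) KK)
    (LinearMap.ker_eq_bot.2 (algebraMap (ZMod 2) KK).injective)
  exact ⟨π, fun x => LinearMap.congr_fun hπ x⟩

/-- **(b)** -/
theorem desc_sum {S : Set E2} {l : List E2} {u : L2} {y : LK} (hy : y ∈ FK S)
    (h : up u = (l.map fun q => aK (em q) y).sum) : ∃ y' ∈ F2 S, u = (l.map fun q => a2 q y').sum := by
  obtain ⟨π, hπ⟩ := exists_pi
  refine ⟨pj π y, pj_mem π hy, ?_⟩
  have h1 : pj π (up u) = u := funext fun i => hπ (u i)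
  have h2 : ∀ l : List E2, pj π (l.map fun q => aK (em q) y).sum = (l.map fun q => a2 q (pj π y)).sum := by
    intro l
    induction l with
    | nil => exact map_zero _
    | cons a l ih =>
      rw [List.map_cons, List.sum_cons, List.map_cons, List.sum_cons, ← ih, ← pj_aK]
      exact map_add (pj π) _ _
  exact h1.symm.trans ((congrArg (pj π) h).trans (h2 l))

/-- **(c)** -/
theorem mem_span_up {S : Set E2} {v : LK} (hv : v ∈ FK S) :
    v ∈ Submodule.span KK {w | ∃ u ∈ F2 S, w = up u} := by
  classical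
  let B := Module.Basis.ofVectorSpace (ZMod 2) KK
  let s : Finset _ := Finset.univ.biUnion fun i : chevE8.Idx => (B.repr (v i)).support
  have e : v = ∑ k ∈ s, B k • up (pj (B.coord k) v) := by
    funext i
    rw [Finset.sum_apply]
    have h1 : ∀ k, (B k • up (pj (B.coord k) v)) i = B.repr (v i) k • B k := by
      intro k
      show B k * algebraMap (ZMod 2) KK (B.repr (v i) k) = _
      rw [mul_comm, Algebra.smul_def]
    rw [Finset.sum_congr rfl fun k _ => h1 k]
    conv_lhs => rw [← B.linearCombination_repr (v i), Finsupp.linearCombination_apply, Finsupp.sum]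
    refine Finset.sum_subset (Finset.subset_biUnion_of_mem (fun i : chevE8.Idx => (B.repr (v i)).support)
      (Finset.mem_univ i)) fun k _ hk => ?_
    rw [Finsupp.notMem_support_iff.1 hk, zero_smul]
  rw [e]
  exact Submodule.sum_mem _ fun k _ => Submodule.smul_mem _ _ (Submodule.subset_span ⟨_, pj_mem _ hv, rfl⟩)

/-- **(a)** -/
theorem finrank_fix (S : Set E2) : Module.finrank (ZMod 2) (F2 S) = Module.finrank KK (FK S) := by
  classical
  let b := Module.finBasis (ZMod 2) (F2 S)
  let u : Fin (Module.finrank (ZMod 2) (F2 S)) → LK := fun k => up (b k : L2)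
  have hli : LinearIndependent KK u := by
    rw [Fintype.linearIndependent_iff]
    intro c hc k
    rw [← Module.forall_dual_apply_eq_zero_iff (ZMod 2)]
    intro π
    have h1 := congrArg (pj π) hc
    rw [map_sum, map_zero, Finset.sum_congr rfl fun k _ => pj_smul_up π (c k) (b k : L2)] at h1
    have h2 : ∑ k, π (c k) • b k = 0 := by
      apply Subtype.ext
      rw [AddSubmonoidClass.coe_finsetSum]
      exact h1
    exact Fintype.linearIndependent_iff.1 b.linearIndependent _ h2 k
  have hsp : Submodule.span KK (Set.range u) = FK S := by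
    apply le_antisymm
    · rw [Submodule.span_le]
      rintro _ ⟨k, rfl⟩
      exact up_mem (b k).2
    · intro v hv
      refine Submodule.span_le.2 ?_ (mem_span_up hv)
      rintro _ ⟨w, hw, rfl⟩
      have h1 := b.sum_repr ⟨w, hw⟩
      have h2 : w = ∑ k, b.repr ⟨w, hw⟩ k • (b k : L2) := by
        have h3 := congrArg Subtype.val h1
        rw [AddSubmonoidClass.coe_finsetSum] at h3
        exact h3.symm
      have h3 : up w = ∑ k, algebraMap (ZMod 2) KK (b.repr ⟨w, hw⟩ k) • u k := by
        funext i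
        rw [Finset.sum_apply]
        show algebraMap (ZMod 2) KK (w i) = _
        conv_lhs => rw [h2]
        rw [Finset.sum_apply, map_sum]
        refine Finset.sum_congr rfl fun k _ => ?_
        show algebraMap (ZMod 2) KK (b.repr ⟨w, hw⟩ k * (b k : L2) i) = _
        rw [map_mul]
        rfl
      show up w ∈ Submodule.span KK (Set.range u)
      rw [h3]
      exact Submodule.sum_mem _ fun k _ => Submodule.smul_mem _ _ (Submodule.subset_span ⟨k, rfl⟩)
  rw [← hsp, finrank_span_eq_card hli, Fintype.card_fin]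

end Cfsg.Agent.H436.L34
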