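import Cfsg.Agent.H436.L34.Nine
import Cfsg.Agent.H939.L64.Base

/-!
# S5917, row N1: the linear map of a submodule of type 9 in frame coordinates (helper436)

`exists_Phi_frame` : `f : SL₃(4) → E₈(2)`, `W` of type 9 in `L2`, `z` a frame; `Φ : M₃(KK) → LK`.
-/

set_option autoImplicit false
set_option maxRecDepth 100000

namespace Cfsg.Agent.H436.L34

open Matrix Cfsg Cfsg.Lie Cfsg.Lie.ChevalleyDatum Cfsg.Agent.H691.L34
open Cfsg.Agent.ChevalleyStructure.LieAbs Cfsg.Agent.ChevalleyStructure.LieAut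
open Cfsg.Agent.H939.L64

theorem charKK' : CharP KK 2 := inferInstance

theorem jj_up (v : L2) : jj KK v = up v := by
  funext i
  unfold jj up
  rcases zmod_two (v i) with h | h
  · rw [if_pos h, h, map_zero]
  · rw [h, map_one, if_neg (by decide)]

/-- the action and the inclusion -/
theorem aK_em_up (g : E2) (v : L2) : aK (em g) (up v) = up (a2 g v) := by
  funext i
  show (((em g : ↥(chevE8.group KK)) : GL chevE8.Idx KK) : Matrix chevE8.Idx chevE8.Idx KK).mulVec (up v) i =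
    algebraMap (ZMod 2) KK ((((g : GL chevE8.Idx (ZMod 2)) : Matrix chevE8.Idx chevE8.Idx (ZMod 2))).mulVec v i)
  rw [Matrix.mulVec, Matrix.mulVec, dotProduct, dotProduct, map_sum]
  refine Finset.sum_congr rfl fun j _ => ?_
  rw [em_entry, map_mul]
  rfl

/-- the bracket and the inclusion -/
theorem up_br (u v : L2) : up (br2 u v) = brK (up u) (up v) := by
  funext i
  show algebraMap (ZMod 2) KK ((adv (adR chevE8 (ZMod 2)) u).mulVec v i) =
    (adv (adR chevE8 KK) (up u)).mulVec (up v) i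
  rw [Matrix.mulVec, Matrix.mulVec, dotProduct, dotProduct, map_sum]
  refine Finset.sum_congr rfl fun j _ => ?_
  rw [map_mul]
  have h1 := adv_map (algebraMap (ZMod 2) KK) (adR chevE8 (ZMod 2)) u
  have h2 := congrFun (congrFun h1 i) j
  rw [Matrix.map_apply] at h2
  rw [h2]
  have h3 : (fun j => (adR chevE8 (ZMod 2) j).map (algebraMap (ZMod 2) KK)) = adR chevE8 KK := by
    funext j
    exact adR_map chevE8 _ j
  rw [h3]
  rfl

theorem aK_mul' (g h : ↥(chevE8.group KK)) (v : LK) : aK (g * h) v = aK g (aK h v) := by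
  show (((g * h : ↥(chevE8.group KK)) : GL chevE8.Idx KK) : Matrix chevE8.Idx chevE8.Idx KK).mulVec v = _
  rw [Subgroup.coe_mul, Units.val_mul]
  exact (Matrix.mulVec_mulVec _ _ _).symm

theorem aK_one' (v : LK) : aK 1 v = v := by
  show (((1 : ↥(chevE8.group KK)) : GL chevE8.Idx KK) : Matrix chevE8.Idx chevE8.Idx KK).mulVec v = _
  rw [Subgroup.coe_one, Units.val_one]
  exact Matrix.one_mulVec _

/-- the action as a linear map -/
noncomputable def ln (g : ↥(chevE8.group KK)) : LK →ₗ[KK] LK :=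
  Matrix.mulVecLin (((g : GL chevE8.Idx KK) : Matrix chevE8.Idx chevE8.Idx KK))

theorem ln_apply (g : ↥(chevE8.group KK)) (v : LK) : ln g v = aK g v := rfl

variable {F : Type} [Field F] [Fintype F]

/-- **row N1 in frame coordinates** -/
theorem exists_Phi_frame (hF : Fintype.card F = 4) (ι : F →+* KK) (f : G3 F →* E2)
    {ρ : Representation (ZMod 2) (G3 F) L2} (hρ : ∀ g v, ρ g v = a2 (f g) v) {b : Bool} {W : Submodule (ZMod 2) L2}
    (h : IsNine ρ b W) (z : ↥(chevE8.group KK)) :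
    ∃ Φ : Matrix (Fin 3) (Fin 3) KK →ₗ[KK] LK, Function.Injective Φ ∧
      (∀ v, v ∈ W ↔ ∃ X, HF X ∧ Φ (X.map ι) = aK z⁻¹ (up v)) ∧
      (∀ X, HF X → ∃ v ∈ W, Φ (X.map ι) = aK z⁻¹ (up v)) ∧
      (∀ X, Φ (X.map fun a => a ^ 2).transpose = aK z⁻¹ (fr (aK z (Φ X)))) ∧
      (∀ X, Φ X ∈ Submodule.span KK {u | ∃ v ∈ W, u = aK z⁻¹ (up v)}) ∧
      (∀ (g : G3 F) X, aK (z⁻¹ * em (f g) * z) (Φ X) =
        Φ ((tw b g : M3 F).map ι * X * (ct (tw b g : M3 F)).map ι)) ∧
      ((∀ x ∈ W, ∀ y ∈ W, br2 x y = 0) → ∀ X Y, brK (Φ X) (Φ Y) = 0) := by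
  obtain ⟨Φ, i1, i2, i3, i4, i5, i6⟩ := exists_nine_Phi (K := KK) hF ι h
  have hz : ∀ v : LK, aK z (aK z⁻¹ v) = v := fun v => by rw [← aK_mul', mul_inv_cancel, aK_one']
  have hz' : ∀ v : LK, aK z⁻¹ (aK z v) = v := fun v => by rw [← aK_mul', inv_mul_cancel, aK_one']
  have hs : ∀ X, Φ X ∈ Submodule.span KK {u | ∃ v ∈ W, u = jj KK v} := i5
  refine ⟨(ln z⁻¹).comp Φ, ?_, ?_, ?_, ?_, ?_, ?_, ?_⟩
  · intro X Y hXY
    have e : aK z⁻¹ (Φ X) = aK z⁻¹ (Φ Y) := hXY
    have e2 := congrArg (aK z) e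
    rw [hz, hz] at e2
    exact i1 e2
  · intro v
    rw [i2]
    constructor
    · rintro ⟨X, hX, e⟩
      exact ⟨X, hX, by rw [LinearMap.comp_apply, ln_apply, e, jj_up]⟩
    · rintro ⟨X, hX, e⟩
      rw [LinearMap.comp_apply, ln_apply] at e
      have e2 := congrArg (aK z) e
      rw [hz, hz] at e2
      exact ⟨X, hX, by rw [e2, jj_up]⟩
  · intro X hX
    obtain ⟨v, hv, e⟩ := i3 X hX
    exact ⟨v, hv, by rw [LinearMap.comp_apply, ln_apply, e, jj_up]⟩
  · intro X
    rw [LinearMap.comp_apply, LinearMap.comp_apply, ln_apply, ln_apply, hz]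
    congr 1
    funext i
    exact i4 X i
  · intro X
    have e1 := Submodule.mem_map_of_mem (f := ln z⁻¹) (hs X)
    rw [Submodule.map_span] at e1
    refine Submodule.span_mono ?_ e1
    rintro _ ⟨_, ⟨v, hv, rfl⟩, rfl⟩
    exact ⟨v, hv, by rw [ln_apply, jj_up]⟩
  · intro g X
    rw [LinearMap.comp_apply, ln_apply, mul_assoc, aK_mul', aK_mul', hz]
    have e := i6 g (ln (em (f g))) (fun v => by rw [ln_apply, jj_up, aK_em_up, jj_up, hρ]) X
    rw [ln_apply] at e
    rw [e]
    rfl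
  · intro hab X Y
    rw [LinearMap.comp_apply, LinearMap.comp_apply, ln_apply, ln_apply]
    have key : brK (Φ X) (Φ Y) = 0 := by
      have hbl : ∀ u ∈ Submodule.span KK {u | ∃ v ∈ W, u = jj KK v}, ∀ w ∈ Submodule.span KK {u | ∃ v ∈ W, u = jj KK v},
          brL u w = 0 := by
        intro u hu w hw
        induction hu using Submodule.span_induction with
        | mem u hu =>
          obtain ⟨x, hx, rfl⟩ := hu
          induction hw using Submodule.span_induction with
          | mem w hw =>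
            obtain ⟨y, hy, rfl⟩ := hw
            rw [brL_apply, jj_up, jj_up, ← up_br, hab x hx y hy]
            funext i
            exact map_zero _
          | zero => rw [map_zero]
          | add a c _ _ ha hc => rw [map_add, ha, hc, add_zero]
          | smul a c _ hc => rw [map_smul, hc, smul_zero]
        | zero => rw [map_zero, LinearMap.zero_apply]
        | add a c _ _ ha hc => rw [map_add, LinearMap.add_apply, ha, hc, add_zero]
        | smul a c _ hc => rw [map_smul, LinearMap.smul_apply, hc, smul_zero]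
      exact hbl _ (hs X) _ (hs Y)
    have e := Cfsg.Agent.H971.RV.rho_br (by simp) z⁻¹ (Φ X) (Φ Y)
    have e2 : aK z⁻¹ (brK (Φ X) (Φ Y)) = brK (aK z⁻¹ (Φ X)) (aK z⁻¹ (Φ Y)) := e
    rw [← e2, key]
    exact Matrix.mulVec_zero _

end Cfsg.Agent.H436.L34

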